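import Cfsg.Agent.OT4376.Count

/-! The module `ZMod 7` with a generator of period 2, and its kernel table (S4376). -/

set_option autoImplicit false

namespace CfsgOT4376

/-- Action 0. -/
def act0 : Act (ZMod 7) 2 where
  a := AddMonoidHom.mk' (fun v => 6 * v) (fun x y => by ring)
  per := by decide +kernel

/-- Kernel table of `act0`. -/
def tab0 (j n : ℕ) : ℕ :=
  ([[1, 1, 1, 1, 1, 7, 1, 7, 7, 7, 7, 7], [1, 7, 1, 7, 7, 1, 7, 7, 1, 7, 7, 7]] : List (List ℕ)).getD j [] |>.getD
    (([1, 2, 3, 4, 6, 7, 12, 14, 21, 28, 42, 84] : List ℕ).idxOf n) 0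

theorem act0_tab : Tab act0 tab0 :=
  tab_of_check act0 tab0 (by decide +kernel)

end CfsgOT4376
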