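import Cfsg.Agent.OT4376.Free

/-! The module `ZMod 2 × ZMod 2 × ZMod 2 × ZMod 2 × ZMod 2 × ZMod 2` with a generator of period 21, and its kernel table (S4376). -/

set_option autoImplicit false

set_option synthInstance.maxSize 2048

namespace CfsgOT4376

/-- Action 10. -/
def act10 : Act (ZMod 2 × ZMod 2 × ZMod 2 × ZMod 2 × ZMod 2 × ZMod 2) 21 where
  a := AddMonoidHom.mk' (fun v => (v.2.2.2.2.2, v.1, v.2.1 + v.2.2.2.2.2, v.2.2.1, v.2.2.2.1 + v.2.2.2.2.2, v.2.2.2.2.1 + v.2.2.2.2.2)) (fun x y => by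
      ext <;> simp only [Prod.fst_add, Prod.snd_add] <;> ring)
  per := by decide +kernel

/-- Kernel table of `act10`. -/
def tab10 (j n : ℕ) : ℕ :=
  ([[1, 64, 1, 64, 64, 1, 64, 64, 1, 64, 64, 64], [1, 1, 1, 1, 1, 1, 1, 1, 64, 1, 64, 64], [1, 1, 1, 1, 1, 1, 1, 1, 64, 1, 64, 64], [1, 1, 1, 1, 1, 64, 1, 64, 64, 64, 64, 64], [1, 1, 1, 1, 1, 1, 1, 1, 64, 1, 64, 64], [1, 1, 1, 1, 1, 1, 1, 1, 64, 1, 64, 64], [1, 1, 1, 1, 1, 64, 1, 64, 64, 64, 64, 64], [1, 1, 64, 1, 64, 1, 64, 1, 64, 1, 64, 64], [1, 1, 1, 1, 1, 1, 1, 1, 64, 1, 64, 64], [1, 1, 1, 1, 1, 64, 1, 64, 64, 64, 64, 64], [1, 1, 1, 1, 1, 1, 1, 1, 64, 1, 64, 64], [1, 1, 1, 1, 1, 1, 1, 1, 64, 1, 64, 64], [1, 1, 1, 1, 1, 64, 1, 64, 64, 64, 64, 64], [1, 1, 1, 1, 1, 1, 1, 1, 64, 1, 64, 64], [1, 1, 64, 1, 64, 1, 64, 1, 64, 1, 64, 64], [1, 1, 1, 1, 1, 64, 1, 64,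 64, 64, 64, 64], [1, 1, 1, 1, 1, 1, 1, 1, 64, 1, 64, 64], [1, 1, 1, 1, 1, 1, 1, 1, 64, 1, 64, 64], [1, 1, 1, 1, 1, 64, 1, 64, 64, 64, 64, 64], [1, 1, 1, 1, 1, 1, 1, 1, 64, 1, 64, 64], [1, 1, 1, 1, 1, 1, 1, 1, 64, 1, 64, 64]] : List (List ℕ)).getD j [] |>.getD
    (([1, 2, 3, 4, 6, 7, 12, 14, 21, 28, 42, 84] : List ℕ).idxOf n) 0

theorem act10_tab : Tab act10 tab10 :=
  tab_of_free act10 tab10 64 (by simp [ZMod.card]) (by decide +kernel) (by decide +kernel) (by decide +kernel)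

end CfsgOT4376
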