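import Cfsg.Agent.OT4376.Count

/-! The module `ZMod 2 × ZMod 2 × ZMod 2 × ZMod 2` with a generator of period 6, and its kernel table (S4376). -/

set_option autoImplicit false

namespace CfsgOT4376

/-- Action 11. -/
def act11 : Act (ZMod 2 × ZMod 2 × ZMod 2 × ZMod 2) 6 where
  a := AddMonoidHom.mk' (fun v => (v.2.2.2, v.1, v.2.1 + v.2.2.2, v.2.2.1)) (fun x y => by
      ext <;> simp only [Prod.fst_add, Prod.snd_add] <;> ring)
  per := by decide +kernel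

/-- Kernel table of `act11`. -/
def tab11 (j n : ℕ) : ℕ :=
  ([[1, 16, 1, 16, 16, 1, 16, 16, 1, 16, 16, 16], [1, 1, 4, 1, 16, 1, 16, 1, 4, 1, 16, 16], [1, 1, 16, 1, 16, 1, 16, 1, 16, 1, 16, 16], [1, 4, 1, 16, 4, 1, 16, 4, 1, 16, 4, 16], [1, 1, 16, 1, 16, 1, 16, 1, 16, 1, 16, 16], [1, 1, 4, 1, 16, 1, 16, 1, 4, 1, 16, 16]] : List (List ℕ)).getD j [] |>.getD
    (([1, 2, 3, 4, 6, 7, 12, 14, 21, 28, 42, 84] : List ℕ).idxOf n) 0

theorem act11_tab : Tab act11 tab11 :=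
  tab_of_check act11 tab11 (by decide +kernel)

end CfsgOT4376
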