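import Cfsg.Agent.OT4376.Free

/-! The module `ZMod 7 × ZMod 7` with a generator of period 12, and its kernel table (S4376). -/

set_option autoImplicit false

namespace CfsgOT4376

/-- Action 12. -/
def act12 : Act (ZMod 7 × ZMod 7) 12 where
  a := AddMonoidHom.mk' (fun v => (5 * v.2, v.1)) (fun x y => by
      ext <;> simp only [Prod.fst_add, Prod.snd_add] <;> ring)
  per := by decide +kernel

/-- Kernel table of `act12`. -/
def tab12 (j n : ℕ) : ℕ :=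
  ([[1, 1, 1, 1, 1, 49, 1, 49, 49, 49, 49, 49], [1, 1, 1, 1, 1, 1, 49, 1, 1, 1, 1, 49], [1, 1, 1, 1, 49, 1, 49, 1, 1, 1, 49, 49], [1, 1, 1, 49, 1, 1, 49, 1, 1, 49, 1, 49], [1, 1, 49, 1, 49, 1, 49, 1, 49, 1, 49, 49], [1, 1, 1, 1, 1, 1, 49, 1, 1, 1, 1, 49], [1, 49, 1, 49, 49, 1, 49, 49, 1, 49, 49, 49], [1, 1, 1, 1, 1, 1, 49, 1, 1, 1, 1, 49], [1, 1, 49, 1, 49, 1, 49, 1, 49, 1, 49, 49], [1, 1, 1, 49, 1, 1, 49, 1, 1, 49, 1, 49], [1, 1, 1, 1, 49, 1, 49, 1, 1, 1, 49, 49], [1, 1, 1, 1, 1, 1, 49, 1, 1, 1, 1, 49]] : List (List ℕ)).getD j [] |>.getD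
    (([1, 2, 3, 4, 6, 7, 12, 14, 21, 28, 42, 84] : List ℕ).idxOf n) 0

theorem act12_tab : Tab act12 tab12 :=
  tab_of_free act12 tab12 49 (by simp [ZMod.card]) (by decide +kernel) (by decide +kernel) (by decide +kernel)

end CfsgOT4376
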