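import Cfsg.Agent.OT4376.Count

/-! Assembling groups of known order type (S4376). -/

set_option autoImplicit false

namespace CfsgOT4376

variable {V : Type} [AddCommGroup V] {m : ℕ}

/-- Kernel table for an action of period `m`, indexed by all exponents. -/
def TabM (A : Act V m) (T : ℕ → ℕ → ℕ) : Prop :=
  ∀ j n, n ∈ Nat.divisors 84 → ker A.a j n = T j n

theorem Tab.lift {k : ℕ} {A : Act V k} {T : ℕ → ℕ → ℕ} (hT : Tab A T) (m : ℕ) (h : m % k = 0) :
    TabM (A.lift m h) (fun j n => T (j % k) n) :=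
  fun j n hn => hT j n hn

theorem TabM.prod {W : Type} [AddCommGroup W] [Finite V] [Finite W] {A : Act V m} {B : Act W m}
    {S T : ℕ → ℕ → ℕ} (hS : TabM A S) (hT : TabM B T) : TabM (A.prod B) (fun j n => S j n * T j n) :=
  fun j n hn => by rw [Act.ker_prod, hS j n hn, hT j n hn]

/-- Lookup in a list indexed by the divisors of `84`. -/
def look (l : List ℕ) (d : ℕ) : ℕ := l.getD (([1, 2, 3, 4, 6, 7, 12, 14, 21, 28, 42, 84] : List ℕ).idxOf d) 0

theorem semiOT [NeZero m] [Finite V] {A : Act V m} {T : ℕ → ℕ → ℕ} (hT : TabM A T) (N : ℕ)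
    (hN : Nat.card V = N) (f : ℕ → ℕ) (h84 : N * m = f 84)
    (h : ∀ d ∈ ([1, 2, 3, 4, 6, 7, 12, 14, 21, 28, 42, 84] : List ℕ), (∑ c : ZMod m, if d • c = 0 then T c.val d else 0) = f d) :
    OT (Semi A) f := by
  refine OT.of_counts ?_ fun d hd => ?_
  · rw [Nat.card_congr Semi.toProd, Nat.card_prod, hN, Nat.card_zmod, h84]
  · have hd' : d ∈ ([1, 2, 3, 4, 6, 7, 12, 14, 21, 28, 42, 84] : List ℕ) := by
      have : ∀ i ∈ Nat.divisors 84, i ∈ ([1, 2, 3, 4, 6, 7, 12, 14, 21, 28, 42, 84] : List ℕ) := by decide +kernel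
      exact this d hd
    rw [Semi.card_pow, ← h d hd']
    refine Finset.sum_congr rfl fun c _ => ?_
    rw [hT c.val d hd]

theorem isSolvable_fin_pi {G : Type} [Group G] (hG : Group.IsSolvable G) (k : ℕ) :
    Group.IsSolvable (Fin k → G) := by
  obtain ⟨n, hn⟩ := hG
  refine ⟨⟨n, (Subgroup.eq_bot_iff_forall _).mpr fun x hx => funext fun i => ?_⟩⟩
  have : (Pi.evalMonoidHom (fun _ : Fin k => G) i) x ∈ derivedSeries G n :=
    map_derivedSeries_le_derivedSeries _ n (Subgroup.mem_map_of_mem _ hx)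
  rwa [hn, Subgroup.mem_bot] at this

end CfsgOT4376
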