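import Cfsg.Agent.OT4376.Count

/-! Kernel tables of fixed-point-free cyclic actions (S4376). -/

set_option autoImplicit false

namespace CfsgOT4376

variable {V : Type} [AddCommGroup V]

theorem horner_telescope (b : V →+ V) (v : V) (n : ℕ) :
    b ((fun s => v + b s)^[n] 0) - (fun s => v + b s)^[n] 0 = b^[n] v - v := by
  induction n with
  | zero => simp
  | succ n ih =>
    rw [Function.iterate_succ_apply', map_add, Function.iterate_succ_apply']
    set S := (fun s => v + b s)^[n] 0
    have : b (b^[n] v) = b (b S) - b S + b v := by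
      rw [← map_sub, ← map_add, ih]; congr 1; abel
    rw [this]; abel

/-- If no non-trivial power of the generator fixes a non-zero vector, the kernels are all or nothing. -/
theorem tab_of_free [Fintype V] [DecidableEq V] {k : ℕ} [NeZero k] (A : Act V k) (T : ℕ → ℕ → ℕ) (N : ℕ)
    (hN : Fintype.card V = N) (hfix : ∀ j < k, j ≠ 0 → ∀ v : V, A.a^[j] v = v → v = 0)
    (h0 : ∀ n ∈ [1, 2, 3, 4, 6, 7, 12, 14, 21, 28, 42, 84],
      (Finset.univ.filter fun v : V => n • v = 0).card = T 0 n)
    (h1 : ∀ j < k, j ≠ 0 → ∀ n ∈ [1, 2, 3, 4, 6, 7, 12, 14, 21, 28, 42, 84],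
      T j n = if j * n % k = 0 then N else 1) : Tab A T := by
  refine tab_of_check A T fun j hj n hn => ?_
  rcases eq_or_ne j 0 with rfl | hj0
  · rw [← h0 n hn]
    congr 1
    refine Finset.filter_congr fun v _ => ?_
    have : ∀ i : ℕ, (fun s => v + A.a^[0] s)^[i] 0 = i • v := by
      intro i
      induction i with
      | zero => simp
      | succ i ih => rw [Function.iterate_succ_apply', ih, Function.iterate_zero_apply, succ_nsmul']
    rw [this]
  · rw [h1 j hj hj0 n hn]
    let b : V →+ V := { toFun := A.a^[j], map_zero' := iterate_map_zero A.a j, map_add' := fun x y => iterate_map_add A.a j x y }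
    have key : ∀ v : V, (fun s => v + A.a^[j] s)^[n] 0 = 0 ↔ A.a^[j * n % k] v = v := by
      intro v
      have h := horner_telescope b v n
      have hb : (b : V → V)^[n] v = A.a^[j * n % k] v := by
        rw [← A.iterate_mod (j * n), Function.iterate_mul]; rfl
      rw [hb] at h
      constructor
      · intro hv
        have hv' : (fun s => v + b s)^[n] 0 = 0 := hv
        rw [hv', map_zero, sub_zero] at h
        exact sub_eq_zero.mp h.symm
      · intro hv
        rw [hv, sub_self, sub_eq_zero] at h
        exact hfix j hj hj0 _ h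
    simp only [key]
    split_ifs with hm
    · rw [hm, ← hN]; simp
    · have hlt : j * n % k < k := Nat.mod_lt _ (Nat.pos_of_neZero k)
      rw [Finset.card_eq_one]
      refine ⟨0, Finset.ext fun v => ?_⟩
      simp only [Finset.mem_filter, Finset.mem_univ, true_and, Finset.mem_singleton]
      exact ⟨hfix _ hlt hm v, fun hv => by rw [hv, iterate_map_zero]⟩

end CfsgOT4376
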