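import Cfsg.Agent.OT4376.Build
import Cfsg.Agent.OT4376.L27
import Cfsg.Agent.OT4376.Act0
import Cfsg.Agent.OT4376.Act1
import Cfsg.Agent.OT4376.Act2
import Cfsg.Agent.OT4376.Act3
import Cfsg.Agent.OT4376.Act4
import Cfsg.Agent.OT4376.Act5
import Cfsg.Agent.OT4376.Act6
import Cfsg.Agent.OT4376.Act7
import Cfsg.Agent.OT4376.Act8
import Cfsg.Agent.OT4376.Act9
import Cfsg.Agent.OT4376.Act10
import Cfsg.Agent.OT4376.Act11
import Cfsg.Agent.OT4376.Act12

/-! The factors of the example (S4376). -/

set_option autoImplicit false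
set_option maxHeartbeats 1000000

namespace CfsgOT4376

/-- Group 0: order 196. -/
abbrev A0 := ((act0.lift 4 (by decide)).prod (act0.lift 4 (by decide)))

theorem ot0 : OT (Semi A0) (look [1, 2, 1, 100, 2, 49, 100, 98, 49, 196, 98, 196]) :=
  semiOT (m := 4) (((act0_tab.lift 4 (by decide))).prod (act0_tab.lift 4 (by decide))) 49 (by simp [Nat.card_prod, Nat.card_zmod]) _ (by decide +kernel) (by decide +kernel)

/-- Group 1: order 21. -/
abbrev A1 := (act1.lift 3 (by decide))

theorem ot1 : OT (Semi A1) (look [1, 1, 15, 1, 15, 7, 15, 7, 21, 7, 21, 21]) :=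
  semiOT (m := 3) (act1_tab.lift 3 (by decide)) 7 (by simp [Nat.card_prod, Nat.card_zmod]) _ (by decide +kernel) (by decide +kernel)

/-- Group 2: order 7. -/
abbrev A2 := (act2.lift 1 (by decide))

theorem ot2 : OT (Semi A2) (look [1, 1, 1, 1, 1, 7, 1, 7, 7, 7, 7, 7]) :=
  semiOT (m := 1) (act2_tab.lift 1 (by decide)) 7 (by simp [Nat.card_prod, Nat.card_zmod]) _ (by decide +kernel) (by decide +kernel)

/-- Group 3: order 96. -/
abbrev A3 := ((act3.lift 2 (by decide)).prod ((act3.lift 2 (by decide)).prod ((act4.lift 2 (by decide)).prod (act5.lift 2 (by decide)))))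

theorem ot3 : OT (Semi A3) (look [1, 40, 3, 64, 72, 1, 96, 40, 3, 64, 72, 96]) :=
  semiOT (m := 2) (((act3_tab.lift 2 (by decide))).prod (((act3_tab.lift 2 (by decide))).prod (((act4_tab.lift 2 (by decide))).prod (act5_tab.lift 2 (by decide))))) 48 (by simp [Nat.card_prod, Nat.card_zmod]) _ (by decide +kernel) (by decide +kernel)

/-- Group 4: order 2. -/
abbrev A4 := (act3.lift 1 (by decide))

theorem ot4 : OT (Semi A4) (look [1, 2, 1, 2, 2, 1, 2, 2, 1, 2, 2, 2]) :=
  semiOT (m := 1) (act3_tab.lift 1 (by decide)) 2 (by simp [Nat.card_prod, Nat.card_zmod]) _ (by decide +kernel) (by decide +kernel)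

/-- Group 5: order 84. -/
abbrev A5 := (act6.lift 12 (by decide))

theorem ot5 : OT (Semi A5) (look [1, 2, 15, 16, 30, 7, 72, 14, 21, 28, 42, 84]) :=
  semiOT (m := 12) (act6_tab.lift 12 (by decide)) 7 (by simp [Nat.card_prod, Nat.card_zmod]) _ (by decide +kernel) (by decide +kernel)

/-- Group 6: order 588. -/
abbrev A6 := ((act0.lift 12 (by decide)).prod (act6.lift 12 (by decide)))

theorem ot6 : OT (Semi A6) (look [1, 2, 15, 100, 30, 49, 324, 98, 147, 196, 294, 588]) :=
  semiOT (m := 12) (((act0_tab.lift 12 (by decide))).prod (act6_tab.lift 12 (by decide))) 49 (by simp [Nat.card_prod, Nat.card_zmod]) _ (by decide +kernel) (by decide +kernel)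

/-- Group 7: order 2058. -/
abbrev A7 := ((act0.lift 6 (by decide)).prod ((act6.lift 6 (by decide)).prod (act2.lift 6 (by decide))))

theorem ot7 : OT (Semi A7) (look [1, 50, 15, 50, 162, 343, 162, 686, 1029, 686, 2058, 2058]) :=
  semiOT (m := 6) (((act0_tab.lift 6 (by decide))).prod (((act6_tab.lift 6 (by decide))).prod (act2_tab.lift 6 (by decide)))) 343 (by simp [Nat.card_prod, Nat.card_zmod]) _ (by decide +kernel) (by decide +kernel)

/-- Group 8: order 12. -/
abbrev A8 := (act7.lift 4 (by decide))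

theorem ot8 : OT (Semi A8) (look [1, 2, 3, 4, 6, 1, 12, 2, 3, 4, 6, 12]) :=
  semiOT (m := 4) (act7_tab.lift 4 (by decide)) 3 (by simp [Nat.card_prod, Nat.card_zmod]) _ (by decide +kernel) (by decide +kernel)

/-- Group 9: order 288. -/
abbrev A9 := ((act8.lift 6 (by decide)).prod ((act8.lift 6 (by decide)).prod (act5.lift 6 (by decide))))

theorem ot9 : OT (Semi A9) (look [1, 64, 99, 64, 288, 1, 288, 64, 99, 64, 288, 288]) :=
  semiOT (m := 6) (((act8_tab.lift 6 (by decide))).prod (((act8_tab.lift 6 (by decide))).prod (act5_tab.lift 6 (by decide)))) 48 (by simp [Nat.card_prod, Nat.card_zmod]) _ (by decide +kernel) (by decide +kernel)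

/-- Group 10: order 5376. -/
abbrev A10 := ((act8.lift 21 (by decide)).prod ((act9.lift 21 (by decide)).prod (act9.lift 21 (by decide))))

theorem ot10 : OT (Semi A10) (look [1, 256, 9, 256, 768, 385, 768, 1792, 3465, 1792, 5376, 5376]) :=
  semiOT (m := 21) (((act8_tab.lift 21 (by decide))).prod (((act9_tab.lift 21 (by decide))).prod (act9_tab.lift 21 (by decide)))) 256 (by simp [Nat.card_prod, Nat.card_zmod]) _ (by decide +kernel) (by decide +kernel)

/-- Group 11: order 504. -/
abbrev A11 := ((act8.lift 6 (by decide)).prod ((act5.lift 6 (by decide)).prod (act6.lift 6 (by decide))))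

theorem ot11 : OT (Semi A11) (look [1, 88, 171, 88, 432, 7, 432, 112, 189, 112, 504, 504]) :=
  semiOT (m := 6) (((act8_tab.lift 6 (by decide))).prod (((act5_tab.lift 6 (by decide))).prod (act6_tab.lift 6 (by decide)))) 84 (by simp [Nat.card_prod, Nat.card_zmod]) _ (by decide +kernel) (by decide +kernel)

/-- Group 12: order 3528. -/
abbrev A12 := ((act8.lift 6 (by decide)).prod ((act5.lift 6 (by decide)).prod ((act0.lift 6 (by decide)).prod (act1.lift 6 (by decide)))))

theorem ot12 : OT (Semi A12) (look [1, 88, 171, 88, 1440, 49, 1440, 784, 1323, 784, 3528, 3528]) :=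
  semiOT (m := 6) (((act8_tab.lift 6 (by decide))).prod (((act5_tab.lift 6 (by decide))).prod (((act0_tab.lift 6 (by decide))).prod (act1_tab.lift 6 (by decide))))) 588 (by simp [Nat.card_prod, Nat.card_zmod]) _ (by decide +kernel) (by decide +kernel)

/-- Group 13: order 5376. -/
abbrev A13 := ((act8.lift 21 (by decide)).prod (act10.lift 21 (by decide)))

theorem ot13 : OT (Semi A13) (look [1, 256, 513, 256, 768, 385, 768, 1792, 3969, 1792, 5376, 5376]) :=
  semiOT (m := 21) (((act8_tab.lift 21 (by decide))).prod (act10_tab.lift 21 (by decide))) 256 (by simp [Nat.card_prod, Nat.card_zmod]) _ (by decide +kernel) (by decide +kernel)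

/-- Group 14: order 2352. -/
abbrev A14 := ((act9.lift 42 (by decide)).prod (act6.lift 42 (by decide)))

theorem ot14 : OT (Semi A14) (look [1, 64, 15, 64, 288, 343, 288, 784, 1029, 784, 2352, 2352]) :=
  semiOT (m := 42) (((act9_tab.lift 42 (by decide))).prod (act6_tab.lift 42 (by decide))) 56 (by simp [Nat.card_prod, Nat.card_zmod]) _ (by decide +kernel) (by decide +kernel)

/-- Group 15: order 36. -/
abbrev A15 := ((act5.lift 4 (by decide)).prod (act5.lift 4 (by decide)))

theorem ot15 : OT (Semi A15) (look [1, 2, 9, 20, 18, 1, 36, 2, 9, 20, 18, 36]) :=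
  semiOT (m := 4) (((act5_tab.lift 4 (by decide))).prod (act5_tab.lift 4 (by decide))) 9 (by simp [Nat.card_prod, Nat.card_zmod]) _ (by decide +kernel) (by decide +kernel)

/-- Group 16: order 1512. -/
abbrev A16 := ((act3.lift 4 (by decide)).prod ((act5.lift 4 (by decide)).prod ((act5.lift 4 (by decide)).prod ((act7.lift 4 (by decide)).prod (act0.lift 4 (by decide))))))

theorem ot16 : OT (Semi A16) (look [1, 4, 27, 256, 108, 7, 864, 28, 189, 280, 756, 1512]) :=
  semiOT (m := 4) (((act3_tab.lift 4 (by decide))).prod (((act5_tab.lift 4 (by decide))).prod (((act5_tab.lift 4 (by decide))).prod (((act7_tab.lift 4 (by decide))).prod (act0_tab.lift 4 (by decide)))))) 378 (by simp [Nat.card_prod, Nat.card_zmod]) _ (by decide +kernel) (by decide +kernel)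

/-- Group 17: order 5376. -/
abbrev A17 := ((act3.lift 6 (by decide)).prod ((act3.lift 6 (by decide)).prod ((act3.lift 6 (by decide)).prod ((act11.lift 6 (by decide)).prod (act6.lift 6 (by decide))))))

theorem ot17 : OT (Semi A17) (look [1, 352, 225, 1024, 3936, 7, 4608, 1120, 231, 1792, 4704, 5376]) :=
  semiOT (m := 6) (((act3_tab.lift 6 (by decide))).prod (((act3_tab.lift 6 (by decide))).prod (((act3_tab.lift 6 (by decide))).prod (((act11_tab.lift 6 (by decide))).prod (act6_tab.lift 6 (by decide)))))) 896 (by simp [Nat.card_prod, Nat.card_zmod]) _ (by decide +kernel) (by decide +kernel)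

/-- Group 18: order 672. -/
abbrev A18 := ((act11.lift 6 (by decide)).prod (act1.lift 6 (by decide)))

theorem ot18 : OT (Semi A18) (look [1, 20, 225, 32, 468, 7, 480, 140, 231, 224, 588, 672]) :=
  semiOT (m := 6) (((act11_tab.lift 6 (by decide))).prod (act1_tab.lift 6 (by decide))) 112 (by simp [Nat.card_prod, Nat.card_zmod]) _ (by decide +kernel) (by decide +kernel)

/-- Group 19: order 588. -/
abbrev A19 := (act12.lift 12 (by decide))

theorem ot19 : OT (Semi A19) (look [1, 50, 99, 148, 246, 49, 540, 98, 147, 196, 294, 588]) :=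
  semiOT (m := 12) (act12_tab.lift 12 (by decide)) 49 (by simp [Nat.card_prod, Nat.card_zmod]) _ (by decide +kernel) (by decide +kernel)

/-- Group 20: order 1176. -/
abbrev A20 := ((act3.lift 4 (by decide)).prod ((act5.lift 4 (by decide)).prod ((act0.lift 4 (by decide)).prod (act0.lift 4 (by decide)))))

theorem ot20 : OT (Semi A20) (look [1, 4, 3, 592, 12, 49, 600, 196, 147, 784, 588, 1176]) :=
  semiOT (m := 4) (((act3_tab.lift 4 (by decide))).prod (((act5_tab.lift 4 (by decide))).prod (((act0_tab.lift 4 (by decide))).prod (act0_tab.lift 4 (by decide))))) 294 (by simp [Nat.card_prod, Nat.card_zmod]) _ (by decide +kernel) (by decide +kernel)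

/-- Group 21: order 2016. -/
abbrev A21 := ((act3.lift 4 (by decide)).prod ((act3.lift 4 (by decide)).prod ((act3.lift 4 (by decide)).prod ((act5.lift 4 (by decide)).prod ((act7.lift 4 (by decide)).prod (act0.lift 4 (by decide)))))))

theorem ot21 : OT (Semi A21) (look [1, 16, 9, 352, 144, 7, 1152, 112, 63, 448, 1008, 2016]) :=
  semiOT (m := 4) (((act3_tab.lift 4 (by decide))).prod (((act3_tab.lift 4 (by decide))).prod (((act3_tab.lift 4 (by decide))).prod (((act5_tab.lift 4 (by decide))).prod (((act7_tab.lift 4 (by decide))).prod (act0_tab.lift 4 (by decide))))))) 504 (by simp [Nat.card_prod, Nat.card_zmod]) _ (by decide +kernel) (by decide +kernel)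

/-- Group 22: order 96. -/
abbrev A22 := ((act3.lift 4 (by decide)).prod ((act3.lift 4 (by decide)).prod ((act3.lift 4 (by decide)).prod (act5.lift 4 (by decide)))))

theorem ot22 : OT (Semi A22) (look [1, 16, 3, 64, 48, 1, 96, 16, 3, 64, 48, 96]) :=
  semiOT (m := 4) (((act3_tab.lift 4 (by decide))).prod (((act3_tab.lift 4 (by decide))).prod (((act3_tab.lift 4 (by decide))).prod (act5_tab.lift 4 (by decide))))) 24 (by simp [Nat.card_prod, Nat.card_zmod]) _ (by decide +kernel) (by decide +kernel)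

/-- Group 23: order 144. -/
abbrev A23 := ((act8.lift 3 (by decide)).prod ((act8.lift 3 (by decide)).prod (act7.lift 3 (by decide))))

theorem ot23 : OT (Semi A23) (look [1, 16, 99, 16, 144, 1, 144, 16, 99, 16, 144, 144]) :=
  semiOT (m := 3) (((act8_tab.lift 3 (by decide))).prod (((act8_tab.lift 3 (by decide))).prod (act7_tab.lift 3 (by decide)))) 48 (by simp [Nat.card_prod, Nat.card_zmod]) _ (by decide +kernel) (by decide +kernel)

/-- Group 24: order 756. -/
abbrev A24 := ((act7.lift 4 (by decide)).prod ((act7.lift 4 (by decide)).prod ((act7.lift 4 (by decide)).prod (act0.lift 4 (by decide)))))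

theorem ot24 : OT (Semi A24) (look [1, 2, 27, 16, 54, 7, 432, 14, 189, 28, 378, 756]) :=
  semiOT (m := 4) (((act7_tab.lift 4 (by decide))).prod (((act7_tab.lift 4 (by decide))).prod (((act7_tab.lift 4 (by decide))).prod (act0_tab.lift 4 (by decide))))) 189 (by simp [Nat.card_prod, Nat.card_zmod]) _ (by decide +kernel) (by decide +kernel)

/-- Group 25: order 196. -/
abbrev A25 := ((act3.lift 2 (by decide)).prod ((act0.lift 2 (by decide)).prod (act0.lift 2 (by decide))))

theorem ot25 : OT (Semi A25) (look [1, 100, 1, 100, 100, 49, 100, 196, 49, 196, 196, 196]) :=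
  semiOT (m := 2) (((act3_tab.lift 2 (by decide))).prod (((act0_tab.lift 2 (by decide))).prod (act0_tab.lift 2 (by decide)))) 98 (by simp [Nat.card_prod, Nat.card_zmod]) _ (by decide +kernel) (by decide +kernel)

/-- The solvable group. -/
abbrev GS : Type := ((((((((((((((PUnit × (Fin 5 → Semi A0)) × (Fin 10 → Semi A2)) × (Fin 3 → Semi A3)) × (Fin 9 → Semi A5)) × (Fin 3 → Semi A10)) × (Fin 15 → Semi A11)) × (Fin 3 → Semi A14)) × (Fin 6 → Semi A15)) × (Fin 3 → Semi A18)) × (Fin 3 → Semi A19)) × (Fin 9 → Semi A22)) × (Fin 3 → Semi A23)) × (Fin 9 → Semi A24)) × (Fin 2 → Semi A25))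

/-- The non-solvable group. -/
abbrev GN : Type := (((((((((((((Fin 3 → L27) × (Fin 2 → Semi A1)) × (Fin 5 → Semi A4)) × (Fin 2 → Semi A6)) × (Fin 8 → Semi A7)) × (Fin 24 → Semi A8)) × (Fin 6 → Semi A9)) × (Fin 9 → Semi A12)) × (Fin 3 → Semi A13)) × (Fin 6 → Semi A16)) × (Fin 3 → Semi A17)) × (Fin 3 → Semi A20)) × (Fin 6 → Semi A21))

theorem same (n : ℕ) : Nat.card {x : GS // x ^ n = 1} = Nat.card {x : GN // x ^ n = 1} :=
  OT.sameOrderType (OT.prod (OT.prod (OT.prod (OT.prod (OT.prod (OT.prod (OT.prod (OT.prod (OT.prod (OT.prod (OT.prod (OT.prod (OT.prod (OT.prod OT.one (ot0.pow 5)) (ot2.pow 10)) (ot3.pow 3)) (ot5.pow 9)) (ot10.pow 3)) (ot11.pow 15)) (ot14.pow 3)) (ot15.pow 6)) (ot18.pow 3)) (ot19.pow 3)) (ot22.pow 9)) (ot23.pow 3)) (ot24.pow 9)) (ot25.pow 2))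
    (OT.prod (OT.prod (OT.prod (OT.prod (OT.prod (OT.prod (OT.prod (OT.prod (OT.prod (OT.prod (OT.prod (OT.prod (ot_L27.pow 3) (ot1.pow 2)) (ot4.pow 5)) (ot6.pow 2)) (ot7.pow 8)) (ot8.pow 24)) (ot9.pow 6)) (ot12.pow 9)) (ot13.pow 3)) (ot16.pow 6)) (ot17.pow 3)) (ot20.pow 3)) (ot21.pow 6)) (by decide +kernel) n

theorem solvable_GS : Group.IsSolvable GS := by
  have h1 : Group.IsSolvable PUnit := Group.isSolvable_of_comm fun a b => Subsingleton.elim _ _
  have s0 : Group.IsSolvable (Fin 5 → Semi A0) := isSolvable_fin_pi Semi.isSolvable _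
  have s2 : Group.IsSolvable (Fin 10 → Semi A2) := isSolvable_fin_pi Semi.isSolvable _
  have s3 : Group.IsSolvable (Fin 3 → Semi A3) := isSolvable_fin_pi Semi.isSolvable _
  have s5 : Group.IsSolvable (Fin 9 → Semi A5) := isSolvable_fin_pi Semi.isSolvable _
  have s10 : Group.IsSolvable (Fin 3 → Semi A10) := isSolvable_fin_pi Semi.isSolvable _
  have s11 : Group.IsSolvable (Fin 15 → Semi A11) := isSolvable_fin_pi Semi.isSolvable _
  have s14 : Group.IsSolvable (Fin 3 → Semi A14) := isSolvable_fin_pi Semi.isSolvable _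
  have s15 : Group.IsSolvable (Fin 6 → Semi A15) := isSolvable_fin_pi Semi.isSolvable _
  have s18 : Group.IsSolvable (Fin 3 → Semi A18) := isSolvable_fin_pi Semi.isSolvable _
  have s19 : Group.IsSolvable (Fin 3 → Semi A19) := isSolvable_fin_pi Semi.isSolvable _
  have s22 : Group.IsSolvable (Fin 9 → Semi A22) := isSolvable_fin_pi Semi.isSolvable _
  have s23 : Group.IsSolvable (Fin 3 → Semi A23) := isSolvable_fin_pi Semi.isSolvable _
  have s24 : Group.IsSolvable (Fin 9 → Semi A24) := isSolvable_fin_pi Semi.isSolvable _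
  have s25 : Group.IsSolvable (Fin 2 → Semi A25) := isSolvable_fin_pi Semi.isSolvable _
  infer_instance

theorem not_solvable_GN : ¬ Group.IsSolvable GN := by
  intro h
  let π : GN →* L27 := (((((((((((((Pi.evalMonoidHom (fun _ : Fin 3 => L27) 0).comp (MonoidHom.fst _ _)).comp (MonoidHom.fst _ _)).comp (MonoidHom.fst _ _)).comp (MonoidHom.fst _ _)).comp (MonoidHom.fst _ _)).comp (MonoidHom.fst _ _)).comp (MonoidHom.fst _ _)).comp (MonoidHom.fst _ _)).comp (MonoidHom.fst _ _)).comp (MonoidHom.fst _ _)).comp (MonoidHom.fst _ _)).comp (MonoidHom.fst _ _))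
  have hπ : Function.Surjective π := fun a => ⟨((((((((((((((fun _ => a), 1), 1), 1), 1), 1), 1), 1), 1), 1), 1), 1), 1) : GN), rfl⟩
  exact not_solvable_L27 (Group.isSolvable_of_surjective hπ)

end CfsgOT4376
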